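import Cfsg.Agent.Lib.RealCl.Fld
import Cfsg.Agent.Lib.Invol.BaerSuzuki
import Cfsg.Agent.Lib.Invol.Dihedral
import Cfsg.Agent.Lib.Core.Cores
import Cfsg.Agent.Lib.Fgs.ClassSize

/-! Linear groups in characteristic two in which every non-zero vector is fixed by a unique Sylow
`2`-subgroup and centralisers of real elements of odd order have the orbits of the whole group. -/

set_option autoImplicit false
set_option linter.style.haveILetI false
set_option linter.unusedSectionVars false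
set_option linter.unusedVariables false

namespace CfsgLib.RealCl

open Subgroup Cfsg

variable {H : Type*} [Group H] {W : Type*} [AddCommGroup W]

/-- `2`-elements. -/
def T2 (t : H) : Prop := ∃ k : ℕ, t ^ 2 ^ k = 1

/-- Non-trivial real elements of odd order. -/
def RO (y : H) : Prop := y ≠ 1 ∧ Odd (orderOf y) ∧ IsConj y y⁻¹

theorem T2.of_mul_self {t : H} (h : t * t = 1) : T2 t := ⟨1, by simpa [sq] using h⟩

theorem T2.conj {t : H} (h : T2 t) (g : H) : T2 (g * t * g⁻¹) := by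
  obtain ⟨k, hk⟩ := h
  exact ⟨k, by rw [conj_pow, hk]; simp⟩

theorem T2.of_mem {Q : Subgroup H} (hQ : IsPGroup 2 Q) {t : H} (ht : t ∈ Q) : T2 t := by
  obtain ⟨k, hk⟩ := hQ ⟨t, ht⟩
  exact ⟨k, by simpa using congrArg Subtype.val hk⟩

theorem T2.isPGroup {t : H} (h : T2 t) : IsPGroup 2 (zpowers t) := by
  obtain ⟨k, hk⟩ := h
  rintro ⟨_, n, rfl⟩
  refine ⟨k, Subtype.ext ?_⟩
  simp only [SubmonoidClass.coe_pow, OneMemClass.coe_one]
  rw [← zpow_natCast, ← zpow_mul, mul_comm, zpow_mul, zpow_natCast, hk, one_zpow]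

theorem T2.eq_one_of_odd {t : H} (h : T2 t) (ho : Odd (orderOf t)) : t = 1 := by
  obtain ⟨k, hk⟩ := h
  rw [← orderOf_eq_one_iff]
  exact (Nat.coprime_self _).1 (Nat.Coprime.coprime_dvd_right (orderOf_dvd_of_pow_eq_one hk)
    ((Nat.coprime_two_right.2 ho).pow_right k))

theorem T2.exists_invol {t : H} (h : T2 t) (h1 : t ≠ 1) :
    ∃ s ∈ zpowers t, s ≠ 1 ∧ s * s = 1 := by
  obtain ⟨k, hk⟩ := h
  induction k with
  | zero => exact absurd (by simpa using hk) h1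
  | succ k ih =>
    by_cases h0 : t ^ 2 ^ k = 1
    · exact ih h0
    · exact ⟨t ^ 2 ^ k, pow_mem (mem_zpowers t) _, h0, by rw [← pow_add, ← two_mul, ← pow_succ', hk]⟩

theorem RO.of_inv {a y : H} (h1 : y ≠ 1) (ho : Odd (orderOf y)) (h : a * y * a⁻¹ = y⁻¹) : RO y :=
  ⟨h1, ho, isConj_iff.2 ⟨a, h⟩⟩

theorem sq_ne_one_of_odd {y : H} (h1 : y ≠ 1) (ho : Odd (orderOf y)) : y * y ≠ 1 := fun h =>
  h1 ((T2.of_mul_self h).eq_one_of_odd ho)

theorem odd_of_mem_zpowers {x y : H} (ho : Odd (orderOf x)) (h : y ∈ zpowers x) :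
    Odd (orderOf y) := ho.of_dvd_nat (orderOf_dvd_of_mem_zpowers h)

theorem inv_of_mem_zpowers {a x y : H} (h : a * x * a⁻¹ = x⁻¹) (hy : y ∈ zpowers x) :
    a * y * a⁻¹ = y⁻¹ := by
  obtain ⟨n, rfl⟩ := hy
  simp only
  rw [← conj_zpow, h, inv_zpow]

theorem commute_of_mem_zpowers {c x y : H} (h : Commute c x) (hy : y ∈ zpowers x) :
    Commute c y := by
  obtain ⟨n, rfl⟩ := hy
  exact h.zpow_right n

/-- The subgroup generated by commuting elements of odd order inverted by `b`. -/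
theorem closure_inv [Finite H] {b : H} {S : Set H} (hc : ∀ x ∈ S, ∀ y ∈ S, x * y = y * x)
    (hb : ∀ x ∈ S, b * x * b⁻¹ = x⁻¹) (ho : ∀ x ∈ S, Odd (orderOf x)) :
    (∀ x ∈ closure S, ∀ y ∈ closure S, x * y = y * x) ∧
      ∀ x ∈ closure S, b * x * b⁻¹ = x⁻¹ ∧ Odd (orderOf x) := by
  have h1 : ∀ x ∈ closure S, ∀ y ∈ closure S, x * y = y * x := by
    have h0 : ∀ x ∈ S, ∀ y ∈ closure S, x * y = y * x := by
      intro x hx y hy
      have : closure S ≤ centralizer {x} := by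
        rw [closure_le]
        intro z hz
        exact mem_centralizer_singleton_iff.2 (hc z hz x hx)
      exact (mem_centralizer_singleton_iff.1 (this hy)).symm
    intro x hx y hy
    have : closure S ≤ centralizer {y} := by
      rw [closure_le]
      intro z hz
      exact mem_centralizer_singleton_iff.2 (h0 z hz y hy)
    exact mem_centralizer_singleton_iff.1 (this hx)
  refine ⟨h1, fun x hx => ?_⟩
  induction hx using closure_induction with
  | mem x hx => exact ⟨hb x hx, ho x hx⟩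
  | one => simp
  | mul x y hx hy h2 h3 =>
    refine ⟨?_, ?_⟩
    · calc b * (x * y) * b⁻¹ = (b * x * b⁻¹) * (b * y * b⁻¹) := by group
        _ = (x * y)⁻¹ := by rw [h2.1, h3.1, h1 x hx y hy, mul_inv_rev]
    · exact (h2.2.mul h3.2).of_dvd_nat
        ((Commute.orderOf_mul_dvd_mul_orderOf (h1 x hx y hy)))
  | inv x hx h2 =>
    refine ⟨?_, by rw [orderOf_inv]; exact h2.2⟩
    calc b * x⁻¹ * b⁻¹ = (b * x * b⁻¹)⁻¹ := by group
      _ = _ := by rw [h2.1]

/-- A `2`-group fixes a non-zero vector of every non-zero invariant subgroup. -/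
theorem exists_fixed [Finite W] (ρ : H →* Module.End ℤ W) (h2 : ∀ v : W, v + v = 0)
    {Q : Subgroup H} (hQ : IsPGroup 2 Q) (S : AddSubgroup W) (hS : ∃ v ∈ S, v ≠ 0)
    (hinv : ∀ g ∈ Q, ∀ v ∈ S, ρ g v ∈ S) : ∃ v ∈ S, v ≠ 0 ∧ ∀ g ∈ Q, ρ g v = v := by
  letI : MulAction Q S :=
    { smul := fun g v => ⟨ρ g v, hinv g g.2 v v.2⟩
      one_smul := fun v => Subtype.ext (by change ρ (1 : H) v = v; simp)
      mul_smul := fun g h v => Subtype.ext (by change ρ ((g : H) * h) v = ρ g (ρ h v); simp) }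
  have hd : 2 ∣ Nat.card S := by
    obtain ⟨v, hv, hv0⟩ := hS
    have : addOrderOf (⟨v, hv⟩ : S) = 2 := by
      haveI : Fact (Nat.Prime 2) := ⟨Nat.prime_two⟩
      apply addOrderOf_eq_prime
      · exact Subtype.ext (by simpa [two_nsmul] using h2 v)
      · exact fun h => hv0 (congrArg Subtype.val h)
    rw [← this]; exact addOrderOf_dvd_natCard _
  obtain ⟨b, hb, hb0⟩ := hQ.exists_fixed_point_of_prime_dvd_card_of_fixed_point S hd
    (a := (0 : S)) (fun g => Subtype.ext (by change ρ g 0 = 0; simp))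
  refine ⟨b, b.2, fun h => hb0 (Subtype.ext h.symm), fun g hg => ?_⟩
  exact congrArg Subtype.val (hb ⟨g, hg⟩)

/-- The hypothesis. -/
structure Lin (ρ : H →* Module.End ℤ W) : Prop where
  two : ∀ v : W, v + v = 0
  nontriv : ∃ v : W, v ≠ 0
  syl : ∀ v : W, v ≠ 0 → ∃ P : Sylow 2 H, (∀ g ∈ (P : Subgroup H), ρ g v = v) ∧
    ∀ g, ρ g v = v → g ∈ normalizer ((P : Subgroup H) : Set H)
  faith : ∀ t, T2 t → (∀ v, ρ t v = v) → t = 1
  fpf : ∀ y, RO y → ∀ v, ρ y v = v → v = 0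
  oe : ∀ y, RO y → ∀ g v, ∃ c, Commute c y ∧ ρ c v = ρ g v
  irr : ∀ S : AddSubgroup W, (∀ g, ∀ v ∈ S, ρ g v ∈ S) → S = ⊥ ∨ S = ⊤

/-- Fixed vectors. -/
def U (ρ : H →* Module.End ℤ W) (a : H) : AddSubgroup W where
  carrier := {v | ρ a v = v}
  add_mem' := fun {u v} hu hv => by
    change ρ a (u + v) = u + v
    rw [map_add, hu, hv]
  zero_mem' := map_zero _
  neg_mem' := fun {u} hu => by
    change ρ a (-u) = -u
    rw [map_neg, hu]

theorem mem_U {ρ : H →* Module.End ℤ W} {a : H} {v : W} : v ∈ U ρ a ↔ ρ a v = v := Iff.rfl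

theorem act_mul (ρ : H →* Module.End ℤ W) (a b : H) (v : W) : ρ (a * b) v = ρ a (ρ b v) := by
  rw [map_mul]; rfl

theorem act_inv (ρ : H →* Module.End ℤ W) (a : H) (v : W) : ρ a⁻¹ (ρ a v) = v := by
  rw [← act_mul]; simp

theorem act_inv' (ρ : H →* Module.End ℤ W) (a : H) (v : W) : ρ a (ρ a⁻¹ v) = v := by
  rw [← act_mul]; simp

theorem act_ne_zero (ρ : H →* Module.End ℤ W) (a : H) {v : W} (hv : v ≠ 0) : ρ a v ≠ 0 :=
  fun h => hv (by rw [← act_inv ρ a v, h, map_zero])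

theorem conj_fix_iff (ρ : H →* Module.End ℤ W) (g t : H) (v : W) :
    ρ (g * t * g⁻¹) (ρ g v) = ρ g v ↔ ρ t v = v := by
  rw [act_mul, act_mul, act_inv]
  refine ⟨fun h => ?_, fun h => by rw [h]⟩
  rw [← act_inv ρ g (ρ t v), h, act_inv]

theorem fix_zpowers (ρ : H →* Module.End ℤ W) {t s : H} {v : W} (h : ρ t v = v)
    (hs : s ∈ zpowers t) : ρ s v = v := by
  let St : Subgroup H :=
    { carrier := {g | ρ g v = v}
      mul_mem' := fun {a b} ha hb => by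
        change ρ (a * b) v = v
        rw [act_mul, hb, ha]
      one_mem' := by change ρ 1 v = v; simp
      inv_mem' := fun {a} ha => by
        change ρ a⁻¹ v = v
        conv_lhs => rw [← ha]
        exact act_inv ρ a v }
  exact (zpowers_le (H := St)).2 h hs

namespace Lin

variable [Finite H] [Finite W] {ρ : H →* Module.End ℤ W} (h : Lin ρ)
include h

theorem exists_P {v : W} (hv : v ≠ 0) : ∃ P : Sylow 2 H,
    ∀ t, t ∈ (P : Subgroup H) ↔ T2 t ∧ ρ t v = v := by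
  obtain ⟨P, hP, hN⟩ := h.syl v hv
  refine ⟨P, fun t => ⟨fun ht => ⟨T2.of_mem P.isPGroup' ht, hP t ht⟩, fun ht => ?_⟩⟩
  have h1 : IsPGroup 2 (zpowers t ⊔ (P : Subgroup H) : Subgroup H) :=
    IsPGroup.to_sup_of_normal_right' ht.1.isPGroup P.isPGroup' (zpowers_le.2 (hN t ht.2))
  have h3 := P.is_maximal' h1 le_sup_right
  rw [← h3]
  exact mem_sup_left (mem_zpowers t)

theorem T2_mul {v : W} (hv : v ≠ 0) {s t : H} (hs : T2 s) (ht : T2 t) (hsv : ρ s v = v)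
    (htv : ρ t v = v) : T2 (s * t) := by
  obtain ⟨P, hP⟩ := h.exists_P hv
  exact ((hP _).1 (mul_mem ((hP s).2 ⟨hs, hsv⟩) ((hP t).2 ⟨ht, htv⟩))).1

theorem fix2 {Q : Subgroup H} (hQ : IsPGroup 2 Q) : ∃ v, v ≠ 0 ∧ ∀ g ∈ Q, ρ g v = v := by
  obtain ⟨v, hv⟩ := h.nontriv
  obtain ⟨w, -, hw⟩ := exists_fixed ρ h.two hQ ⊤ ⟨v, trivial, hv⟩ (fun _ _ _ _ => trivial)
  exact ⟨w, hw⟩

theorem U_ne {t : H} (ht : T2 t) : ∃ v, v ≠ 0 ∧ ρ t v = v := by
  obtain ⟨v, hv, h1⟩ := h.fix2 ht.isPGroup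
  exact ⟨v, hv, h1 t (mem_zpowers t)⟩

/-- `C(y)` is transitive on the Sylow `2`-subgroups. -/
theorem tr {y : H} (hy : RO y) {v v' : W} (hv : v ≠ 0) (hv' : v' ≠ 0) :
    ∃ c, Commute c y ∧ ∀ t, T2 t → (ρ t v = v ↔ ρ (c * t * c⁻¹) v' = v') := by
  obtain ⟨P, hP⟩ := h.exists_P hv
  obtain ⟨P', hP'⟩ := h.exists_P hv'
  obtain ⟨g, hg⟩ := MulAction.exists_smul_eq H P P'
  obtain ⟨c, hc, hcv⟩ := h.oe y hy g v
  refine ⟨c, hc, fun t ht => ?_⟩
  rw [← conj_fix_iff ρ c t v, hcv]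
  have key : ∀ s, T2 s → (ρ s (ρ g v) = ρ g v ↔ ρ s v' = v') := by
    intro s hs
    have e1 : s = g * (g⁻¹ * s * g⁻¹⁻¹) * g⁻¹ := by group
    have e2 : s ∈ (P' : Subgroup H) ↔ g⁻¹ * s * g⁻¹⁻¹ ∈ (P : Subgroup H) := by
      rw [← hg, Sylow.coe_subgroup_smul, mem_pointwise_smul_iff_inv_smul_mem]
      simp
    rw [hP, hP'] at e2
    conv_lhs => rw [e1]
    rw [conj_fix_iff]
    exact ⟨fun h1 => (e2.2 ⟨hs.conj _, h1⟩).2, fun h1 => (e2.1 ⟨hs, h1⟩).2⟩
  exact key _ (ht.conj c)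

theorem disj {a y : H} (ha : a * a = 1) (hy1 : y ≠ 1) (hyo : Odd (orderOf y))
    (hay : a * y * a⁻¹ = y⁻¹) {v : W} (h1 : ρ a v = v) (h2 : ρ (y * a * y⁻¹) v = v) : v = 0 := by
  have e : y * a * y⁻¹ * a = y * y := by
    have : a * y⁻¹ * a = y := by
      calc a * y⁻¹ * a = (a * y * a⁻¹)⁻¹ := by rw [inv_eq_of_mul_eq_one_right ha]; group; simp [inv_eq_of_mul_eq_one_right ha]
        _ = y := by rw [hay, inv_inv]
    calc y * a * y⁻¹ * a = y * (a * y⁻¹ * a) := by group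
      _ = y * y := by rw [this]
  have hyy : y * y ∈ zpowers y := mul_mem (mem_zpowers y) (mem_zpowers y)
  refine h.fpf (y * y) (RO.of_inv (sq_ne_one_of_odd hy1 hyo) (odd_of_mem_zpowers hyo hyy)
    (inv_of_mem_zpowers hay hyy)) v ?_
  rw [← e, act_mul, h1, h2]

theorem split {a y : H} (ha : a * a = 1) (hy1 : y ≠ 1) (hyo : Odd (orderOf y))
    (hay : a * y * a⁻¹ = y⁻¹) (w : W) :
    ∃ x, w = (x + ρ a x) + (x + ρ (y * a * y⁻¹) x) := by
  let f : W →+ W := ((ρ a : W →ₗ[ℤ] W) + (ρ (y * a * y⁻¹) : W →ₗ[ℤ] W)).toAddMonoidHom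
  have hf : ∀ x, f x = ρ a x + ρ (y * a * y⁻¹) x := fun x => rfl
  have hinj : Function.Injective f := by
    rw [injective_iff_map_eq_zero]
    intro x hx
    rw [hf] at hx
    have h1 : ρ (y * a * y⁻¹) x = ρ a x := by
      have := h.two (ρ a x)
      exact (add_left_cancel (hx.trans this.symm))
    have hyy : y * y ∈ zpowers y := mul_mem (mem_zpowers y) (mem_zpowers y)
    have e : y * a * y⁻¹ = (y * y) * a := by
      have : a * y⁻¹ = y * a := by
        calc a * y⁻¹ = (a * y * a⁻¹)⁻¹ * a := by group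
          _ = y * a := by rw [hay, inv_inv]
      rw [mul_assoc, this, mul_assoc]
    rw [e, act_mul] at h1
    have h3 := h.fpf (y * y) (RO.of_inv (sq_ne_one_of_odd hy1 hyo) (odd_of_mem_zpowers hyo hyy)
      (inv_of_mem_zpowers hay hyy)) _ h1
    by_contra hx0
    exact act_ne_zero ρ a hx0 h3
  obtain ⟨x, hx⟩ := Finite.injective_iff_surjective.1 hinj w
  refine ⟨x, ?_⟩
  rw [← hx, hf]
  have := h.two x
  calc ρ a x + ρ (y * a * y⁻¹) x = (x + x) + (ρ a x + ρ (y * a * y⁻¹) x) := by rw [this, zero_add]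
    _ = _ := by abel

omit [Finite H] [Finite W] h in
theorem tr_mem {a : H} (ha : a * a = 1) (x : W) : ρ a (x + ρ a x) = x + ρ a x := by
  rw [map_add, ← act_mul, ha, map_one, add_comm]; rfl

theorem free {a y : H} (ha : a * a = 1) (hy1 : y ≠ 1) (hyo : Odd (orderOf y))
    (hay : a * y * a⁻¹ = y⁻¹) {u : W} (hu : ρ a u = u) : ∃ x, u = x + ρ a x := by
  obtain ⟨x, hx⟩ := h.split ha hy1 hyo hay u
  have hb : (y * a * y⁻¹) * (y * a * y⁻¹) = 1 := by
    calc (y * a * y⁻¹) * (y * a * y⁻¹) = y * (a * a) * y⁻¹ := by group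
      _ = 1 := by rw [ha]; simp
  have h1 : x + ρ (y * a * y⁻¹) x = u - (x + ρ a x) := by rw [hx]; abel
  have h3 : x + ρ (y * a * y⁻¹) x = 0 := by
    refine h.disj ha hy1 hyo hay ?_ (tr_mem hb x)
    rw [h1, map_sub, hu, tr_mem ha]
  exact ⟨x, by rw [hx, h3, add_zero]⟩

theorem triv_of_comm {a y t : H} (ha : a * a = 1) (hy1 : y ≠ 1) (hyo : Odd (orderOf y))
    (hay : a * y * a⁻¹ = y⁻¹) (hty : Commute t y) (ht : ∀ u, ρ a u = u → ρ t u = u) (w : W) :
    ρ t w = w := by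
  obtain ⟨x, hx⟩ := h.split ha hy1 hyo hay w
  have e : x + ρ (y * a * y⁻¹) x = ρ y (ρ y⁻¹ x + ρ a (ρ y⁻¹ x)) := by
    rw [map_add, act_inv', act_mul, act_mul]
  rw [hx, map_add, ht _ (tr_mem ha x), e, ← act_mul, hty.eq, act_mul, ht _ (tr_mem ha _)]

theorem cyc {b : H} {A : Subgroup H} (hc : ∀ x ∈ A, ∀ y ∈ A, x * y = y * x)
    (hb : ∀ x ∈ A, b * x * b⁻¹ = x⁻¹ ∧ Odd (orderOf x)) : ∃ x ∈ A, A = zpowers x := by
  haveI := isCyclic_of_fpf ρ h.nontriv A hc (fun x hx hx1 v hv =>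
    h.fpf x (RO.of_inv hx1 (hb x hx).2 (hb x hx).1) v hv)
  obtain ⟨x, hx⟩ := IsCyclic.exists_generator (α := A)
  refine ⟨x, x.2, le_antisymm (fun y hy => ?_) (zpowers_le.2 x.2)⟩
  obtain ⟨n, hn⟩ := hx ⟨y, hy⟩
  exact ⟨n, by simpa using congrArg Subtype.val hn⟩

theorem cyc2 {b y y' : H} (hc : Commute y y') (hy : b * y * b⁻¹ = y⁻¹) (hy' : b * y' * b⁻¹ = y'⁻¹)
    (ho : Odd (orderOf y)) (ho' : Odd (orderOf y')) :
    ∃ x, closure ({y, y'} : Set H) = zpowers x ∧ b * x * b⁻¹ = x⁻¹ ∧ Odd (orderOf x) := by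
  obtain ⟨h1, h3⟩ := closure_inv (b := b) (S := {y, y'}) (by
      rintro u (rfl | rfl) v (rfl | rfl)
      exacts [rfl, hc.eq, hc.eq.symm, rfl]) (by rintro u (rfl | rfl); exacts [hy, hy'])
    (by rintro u (rfl | rfl); exacts [ho, ho'])
  obtain ⟨x, hx, e⟩ := h.cyc h1 h3
  exact ⟨x, e, h3 x hx⟩

/-- No four-group acts faithfully on an abelian group of odd order in this way. -/
theorem star {a c y y' : H} (ha : a * a = 1) (hc : c * c = 1) (hy1 : y ≠ 1) (hy1' : y' ≠ 1)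
    (ho : Odd (orderOf y)) (ho' : Odd (orderOf y')) (hyy : Commute y y')
    (hay : a * y * a⁻¹ = y⁻¹) (hay' : Commute a y') (hcy : Commute c y)
    (hcy' : c * y' * c⁻¹ = y'⁻¹) : False := by
  have e1 : a * y' * a⁻¹ = y' := by rw [hay'.eq]; simp
  have e2 : c * y * c⁻¹ = y := by rw [hcy.eq]; simp
  obtain ⟨x, hx, hbx, hxo⟩ := h.cyc2 (b := a * c) hyy
    (by calc a * c * y * (a * c)⁻¹ = a * (c * y * c⁻¹) * a⁻¹ := by group
          _ = _ := by rw [e2, hay])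
    (by calc a * c * y' * (a * c)⁻¹ = a * (c * y' * c⁻¹) * a⁻¹ := by group
          _ = (a * y' * a⁻¹)⁻¹ := by rw [hcy']; group
          _ = _ := by rw [e1]) ho ho'
  have hyx : y ∈ zpowers x := hx ▸ subset_closure (by simp)
  have hyx' : y' ∈ zpowers x := hx ▸ subset_closure (by simp)
  have hx1 : x ≠ 1 := by
    rintro rfl
    exact hy1 (by simpa using hyx)
  have norm : ∀ g : H, g * y * g⁻¹ ∈ zpowers x → g * y' * g⁻¹ ∈ zpowers x →
      g * x * g⁻¹ ∈ zpowers x := by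
    intro g h1 h3
    have : closure ({y, y'} : Set H) ≤ (zpowers x).comap (MulAut.conj g).toMonoidHom := by
      rw [closure_le]
      rintro u (rfl | rfl)
      exacts [h1, h3]
    exact this (hx ▸ mem_zpowers x)
  have pw : ∀ g g' : H, ρ (g * x * g⁻¹) = ρ (g' * x * g'⁻¹) → ∀ z ∈ zpowers x,
      ρ (g * z * g⁻¹) = ρ (g' * z * g'⁻¹) := by
    intro g g' e z hz
    rw [← mem_powers_iff_mem_zpowers] at hz
    obtain ⟨n, rfl⟩ := hz
    simp only
    rw [← conj_pow, ← conj_pow, map_pow, map_pow, e]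
  have ninv : ∀ g z : H, z ≠ 1 → Odd (orderOf z) → g * z * g⁻¹ = z⁻¹ → ρ z⁻¹ ≠ ρ z := by
    intro g z h1 h3 h4 e
    obtain ⟨v, hv⟩ := h.nontriv
    have hzz : z * z ∈ zpowers z := mul_mem (mem_zpowers z) (mem_zpowers z)
    refine hv (h.fpf (z * z) (RO.of_inv (sq_ne_one_of_odd h1 h3) (odd_of_mem_zpowers h3 hzz)
      (inv_of_mem_zpowers h4 hzz)) v ?_)
    calc ρ (z * z) v = ρ z (ρ z v) := act_mul ρ z z v
      _ = ρ z⁻¹ (ρ z v) := by rw [e]
      _ = v := act_inv ρ z v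
  have key := conj_eq_of_irred ρ h.nontriv h.two x (fun S hS => h.irr S (fun g v hv => by
      obtain ⟨c, hc, e⟩ := h.oe x (RO.of_inv hx1 hxo hbx) g v
      rw [← e]; exact hS c hc v hv)) ha hc
    (norm a (by rw [hay]; exact inv_mem hyx) (by rw [e1]; exact hyx'))
    (norm c (by rw [e2]; exact hyx) (by rw [hcy']; exact inv_mem hyx'))
    (fun e => ninv a y hy1 ho hay (by
      have := pw a 1 (by simpa using e) y hyx
      rw [hay] at this
      simpa using this))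
    (fun e => ninv c y' hy1' ho' hcy' (by
      have := pw c 1 (by simpa using e) y' hyx'
      rw [hcy'] at this
      simpa using this))
  have := pw a c key y hyx
  rw [hay, e2] at this
  exact ninv a y hy1 ho hay this

end Lin

end CfsgLib.RealCl
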