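import Cfsg.Agent.Lib.RealCl.LinA
import Cfsg.Agent.Lib.Invol.Count

/-! The structure of the linear groups of `LinA`: centralisers of elements inverted by involutions
have odd order, Sylow `2`-subgroups have a unique involution. -/

set_option autoImplicit false
set_option linter.style.haveILetI false
set_option linter.unusedSectionVars false
set_option linter.unusedVariables false

namespace CfsgLib.RealCl

open Subgroup Cfsg CfsgLib.Invol

variable {H : Type*} [Group H] {W : Type*} [AddCommGroup W]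

/-- Baer–Suzuki inside a subgroup. -/
theorem mem_core [Finite H] (M : Subgroup H) {t : H} (htM : t ∈ M) (ht : t * t = 1)
    (hn : ∀ y ∈ M, y ≠ 1 → Odd (orderOf y) → t * y * t⁻¹ = y⁻¹ → False) :
    t ∈ (pCore 2 M).map M.subtype := by
  by_contra hc
  obtain ⟨g, y, -, h1, h2, h3⟩ := exists_inverted_of_not_mem_pCore (G := M) (t := ⟨t, htM⟩)
    (Subtype.ext ht) (fun h => hc ⟨_, h, rfl⟩)
  exact hn y y.2 (fun h => h1 (Subtype.ext h)) (by rwa [Subgroup.orderOf_coe])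
    (by simpa using congrArg Subtype.val h3)

theorem core_conj {M : Subgroup H} {t c : H} (ht : t ∈ (pCore 2 M).map M.subtype) (hc : c ∈ M) :
    c * t * c⁻¹ ∈ (pCore 2 M).map M.subtype := by
  obtain ⟨s, hs, rfl⟩ := ht
  exact ⟨⟨c, hc⟩ * s * ⟨c, hc⟩⁻¹, (inferInstance : (pCore 2 M).Normal).conj_mem s hs _, rfl⟩

theorem core_le {M : Subgroup H} {t : H} (ht : t ∈ (pCore 2 M).map M.subtype) : t ∈ M := by
  obtain ⟨s, hs, rfl⟩ := ht
  exact s.2

/-- No involution commutes with `x`. -/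
def NoInv (x : H) : Prop := ∀ t, t * t = 1 → Commute t x → t = 1

theorem NoInv.eq_one {x t : H} (h : NoInv x) (ht : T2 t) (hc : Commute t x) : t = 1 := by
  by_contra h1
  obtain ⟨s, hs, hs1, hs2⟩ := ht.exists_invol h1
  exact hs1 (h s hs2 (commute_of_mem_zpowers hc.symm hs).symm)

theorem pow_inv_or {r y : H} (h : r * y * r⁻¹ = y⁻¹) (k : ℕ) :
    r ^ k * y * (r ^ k)⁻¹ = y ∧ Even k ∨ r ^ k * y * (r ^ k)⁻¹ = y⁻¹ ∧ Odd k := by
  induction k with
  | zero => left; simp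
  | succ k ih =>
    have e : r ^ (k + 1) * y * (r ^ (k + 1))⁻¹ = r * (r ^ k * y * (r ^ k)⁻¹) * r⁻¹ := by
      rw [pow_succ']; group
    rcases ih with ⟨h1, h2⟩ | ⟨h1, h2⟩
    · right; exact ⟨by rw [e, h1, h], h2.add_one⟩
    · left
      refine ⟨?_, h2.add_one⟩
      rw [e, h1]
      calc r * y⁻¹ * r⁻¹ = (r * y * r⁻¹)⁻¹ := by group
        _ = y := by rw [h, inv_inv]

theorem exists_comm_invol [Finite H] {a y t : H} (ha : a * a = 1) (hy1 : y ≠ 1)
    (hyo : Odd (orderOf y)) (hay : a * y * a⁻¹ = y⁻¹) (ht : t * t = 1) (ht1 : t ≠ 1)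
    (hty : Commute t y) : ∃ s, s ≠ 1 ∧ s * s = 1 ∧ Commute s y ∧ Commute s a := by
  have hne : y⁻¹ ≠ y := fun e => sq_ne_one_of_odd hy1 hyo (by
    calc y * y = y⁻¹ * y := by rw [e]
      _ = 1 := inv_mul_cancel y)
  have ha1 : a ≠ 1 := by
    rintro rfl
    exact hne (by simpa using hay.symm)
  have hr : (a * t) * y * (a * t)⁻¹ = y⁻¹ := by
    calc (a * t) * y * (a * t)⁻¹ = a * (t * y * t⁻¹) * a⁻¹ := by group
      _ = _ := by rw [hty.eq, mul_inv_cancel_right, hay]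
  have hev : Even (orderOf (a * t)) := by
    rcases pow_inv_or hr (orderOf (a * t)) with h1 | h1
    · exact h1.2
    · rw [pow_orderOf_eq_one] at h1
      exact absurd (by simpa using h1.1.symm) hne
  obtain ⟨h1, h2, h3⟩ := central_involution ha ht hev
  set c := (a * t) ^ (orderOf (a * t) / 2) with hc
  have hc2 := mul_self_of_orderOf_two h1
  rcases pow_inv_or hr (orderOf (a * t) / 2) with h4 | h4
  · exact ⟨c, ne_one_of_orderOf_two h1, hc2, by
      have := h4.1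
      rw [← hc, mul_inv_eq_iff_eq_mul] at this
      exact this, h2⟩
  · refine ⟨a * c, fun e => ?_, ?_, ?_, (Commute.refl a).mul_left h2⟩
    · have : a = c := by
        rw [← inv_eq_of_mul_eq_one_right ha, eq_comm, eq_inv_iff_mul_eq_one, h2.eq, e]
      exact not_mem_zpowers_mul (orderOf_eq_two ha1 ha) (orderOf_eq_two ht1 ht)
        (by have h5 : c ∈ zpowers (a * t) := pow_mem (mem_zpowers (a * t)) _
            rwa [← this] at h5)
    · calc a * c * (a * c) = a * (c * a) * c := by group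
        _ = (a * a) * (c * c) := by rw [h2.eq]; group
        _ = 1 := by rw [ha, hc2, one_mul]
    · have e := h4.1
      rw [← hc] at e
      have : a * c * y * (a * c)⁻¹ = y := by
        calc a * c * y * (a * c)⁻¹ = a * (c * y * c⁻¹) * a⁻¹ := by group
          _ = (a * y * a⁻¹)⁻¹ := by rw [e]; group
          _ = y := by rw [hay, inv_inv]
      exact mul_inv_eq_iff_eq_mul.1 this

namespace Lin

variable [Finite H] [Finite W] {ρ : H →* Module.End ℤ W} (h : Lin ρ)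
include h

theorem trC {a x : H} (ha : a * a = 1) (hx1 : x ≠ 1) (hxo : Odd (orderOf x))
    (hax : a * x * a⁻¹ = x⁻¹) (hn : NoInv x) {v v' : W} (hv : v ≠ 0) (hv' : v' ≠ 0)
    (hav : ρ a v = v) (hav' : ρ a v' = v') :
    ∃ c, Commute c x ∧ Commute c a ∧ ∀ t, T2 t → (ρ t v = v ↔ ρ (c * t * c⁻¹) v' = v') := by
  obtain ⟨c, hc, hcv⟩ := h.tr (RO.of_inv hx1 hxo hax) hv hv'
  refine ⟨c, hc, ?_, hcv⟩
  have hT := T2.of_mul_self ha
  have h1 : T2 (a * (c * a * c⁻¹)) := h.T2_mul hv' hT (hT.conj c) hav' ((hcv a hT).1 hav)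
  have h2 : Commute (a * (c * a * c⁻¹)) x := by
    have e1 : c * a * c⁻¹ * x * (c * a * c⁻¹)⁻¹ = x⁻¹ := by
      calc c * a * c⁻¹ * x * (c * a * c⁻¹)⁻¹ = c * (a * (c⁻¹ * x * c) * a⁻¹) * c⁻¹ := by group
        _ = c * x⁻¹ * c⁻¹ := by rw [hc.inv_left.eq, inv_mul_cancel_right, hax]
        _ = x⁻¹ := by rw [hc.inv_right.eq]; simp
    have : a * (c * a * c⁻¹) * x * (a * (c * a * c⁻¹))⁻¹ = x := by
      calc a * (c * a * c⁻¹) * x * (a * (c * a * c⁻¹))⁻¹
          = a * (c * a * c⁻¹ * x * (c * a * c⁻¹)⁻¹) * a⁻¹ := by group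
        _ = (a * x * a⁻¹)⁻¹ := by rw [e1]; group
        _ = x := by rw [hax, inv_inv]
    exact mul_inv_eq_iff_eq_mul.1 this
  have h3 := hn.eq_one h1 h2
  have h4 : c * a * c⁻¹ = a := by
    rw [← inv_eq_of_mul_eq_one_right h3, inv_eq_of_mul_eq_one_right ha]
  exact mul_inv_eq_iff_eq_mul.1 h4

/-- An element of `O₂(M)` fixes every vector reached from a fixed vector of `O₂(M)` inside `M`. -/
theorem core_fix {M : Subgroup H} {t c : H} (ht : t ∈ (pCore 2 M).map M.subtype) (hc : c ∈ M)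
    {v v' : W} (hv : ∀ g ∈ (pCore 2 M).map M.subtype, ρ g v = v)
    (hcv : ∀ t, T2 t → (ρ t v = v ↔ ρ (c * t * c⁻¹) v' = v')) : ρ t v' = v' := by
  have h1 := core_conj ht (inv_mem hc)
  have h2 := (hcv _ (T2.of_mem (CfsgLib.Core.isPGroup_map_pCore M) h1)).1 (hv _ h1)
  have e : c * (c⁻¹ * t * c⁻¹⁻¹) * c⁻¹ = t := by group
  rwa [e] at h2

theorem exists_inv_cent {y t : H} (hy : RO y) (ht : t * t = 1) (ht1 : t ≠ 1) (hty : Commute t y) :
    ∃ y', Commute y' y ∧ y' ≠ 1 ∧ Odd (orderOf y') ∧ t * y' * t⁻¹ = y'⁻¹ := by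
  by_contra hn
  have hmem := mem_core (centralizer {y}) (mem_centralizer_singleton_iff.2 hty.eq) ht
    (fun y' h1 h2 h3 h4 => hn ⟨y', mem_centralizer_singleton_iff.1 h1, h2, h3, h4⟩)
  obtain ⟨v, hv, hfix⟩ := h.fix2 (CfsgLib.Core.isPGroup_map_pCore (p := 2) (centralizer {y}))
  refine ht1 (h.faith t (T2.of_mul_self ht) (fun w => ?_))
  by_cases hw : w = 0
  · rw [hw, map_zero]
  obtain ⟨c, hc, hcv⟩ := h.tr hy hv hw
  exact h.core_fix hmem (mem_centralizer_singleton_iff.2 hc.eq) hfix hcv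

theorem exists_inv {t : H} (ht : t * t = 1) (ht1 : t ≠ 1) :
    ∃ y, y ≠ 1 ∧ Odd (orderOf y) ∧ t * y * t⁻¹ = y⁻¹ := by
  by_contra hn
  have hmem := mem_core ⊤ (mem_top t) ht (fun y' h1 h2 h3 h4 => hn ⟨y', h2, h3, h4⟩)
  refine ht1 (h.faith t (T2.of_mul_self ht) (fun w => ?_))
  by_cases hw : w = 0
  · rw [hw, map_zero]
  obtain ⟨P, hP⟩ := h.exists_P hw
  rw [CfsgLib.Core.map_pCore_top] at hmem
  exact ((hP t).1 (CfsgLib.Core.pCore_le_sylow P hmem)).2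

theorem step1 {b y t y' : H} (hb : b * b = 1) (hy1 : y ≠ 1) (hyo : Odd (orderOf y))
    (hby : b * y * b⁻¹ = y⁻¹) (ht : t * t = 1) (ht1 : t ≠ 1) (hty : Commute t y)
    (htb : Commute t b)
    (hmax : ∀ x, Odd (orderOf x) → b * x * b⁻¹ = x⁻¹ → orderOf y < orderOf x → NoInv x)
    (hyy : Commute y y') (ho' : Odd (orderOf y')) (hby' : b * y' * b⁻¹ = y'⁻¹) :
    y' ∈ zpowers y := by
  by_contra hnot
  obtain ⟨x, hx, hbx, hxo⟩ := h.cyc2 hyy hby hby' hyo ho'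
  have hyx : y ∈ zpowers x := hx ▸ subset_closure (by simp)
  have hyx' : y' ∈ zpowers x := hx ▸ subset_closure (by simp)
  have hx1 : x ≠ 1 := by
    rintro rfl
    exact hy1 (by simpa using hyx)
  have hlt : orderOf y < orderOf x := by
    rw [← Nat.card_zpowers, ← Nat.card_zpowers]
    have : zpowers y < zpowers x := lt_of_le_of_ne (zpowers_le.2 hyx) (fun e => hnot (e ▸ hyx'))
    exact Nat.lt_of_le_of_ne (card_le_of_le this.le)
      (fun e => this.ne (eq_of_le_of_card_ge this.le e.ge))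
  have hn := hmax x hxo hbx hlt
  let M : Subgroup H := centralizer {y} ⊓ centralizer {b}
  have hM : ∀ g, g ∈ M ↔ Commute g y ∧ Commute g b := fun g =>
    and_congr mem_centralizer_singleton_iff mem_centralizer_singleton_iff
  have hmem := mem_core M ((hM t).2 ⟨hty, htb⟩) ht (fun y'' h1 h2 h3 h4 =>
    h.star hb ht hy1 h2 hyo h3 ((hM _).1 h1).1.symm hby ((hM _).1 h1).2.symm hty h4)
  obtain ⟨u, hu0, hu⟩ := h.U_ne (T2.of_mul_self hb)
  obtain ⟨v, hv, hv0, hfix⟩ := exists_fixed ρ h.two (CfsgLib.Core.isPGroup_map_pCore (p := 2) M)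
    (U ρ b) ⟨u, hu, hu0⟩ (fun g hg v hv => by
      rw [mem_U] at hv ⊢
      rw [← act_mul, ← ((hM g).1 (core_le hg)).2.eq, act_mul, hv])
  refine ht1 (h.faith t (T2.of_mul_self ht) (h.triv_of_comm hb hy1 hyo hby hty (fun w hw => ?_)))
  by_cases hw0 : w = 0
  · rw [hw0, map_zero]
  obtain ⟨c, hc1, hc2, hcv⟩ := h.trC hb hx1 hxo hbx hn hv0 hw0 hv hw
  exact h.core_fix hmem ((hM c).2 ⟨commute_of_mem_zpowers hc1 hyx, hc2⟩) hfix hcv

omit h [Finite W] in
theorem quot_core {b y : H} (hb : b * b = 1) (hby : b * y * b⁻¹ = y⁻¹)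
    (hall : ∀ y', Commute y y' → Odd (orderOf y') → b * y' * b⁻¹ = y'⁻¹ → y' ∈ zpowers y)
    (hbD : b ∈ extCentralizer y) [hN : ((zpowers y).subgroupOf (extCentralizer y)).Normal] :
    ((⟨b, hbD⟩ : extCentralizer y) : extCentralizer y ⧸ (zpowers y).subgroupOf (extCentralizer y))
      ∈ pCore 2 (extCentralizer y ⧸ (zpowers y).subgroupOf (extCentralizer y)) := by
  by_contra hc
  set D := extCentralizer y
  set J := (zpowers y).subgroupOf D
  obtain ⟨g, z, hz, h1, h2, h3⟩ := exists_inverted_of_not_mem_pCore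
    (t := ((⟨b, hbD⟩ : D) : D ⧸ J)) (by
      rw [← QuotientGroup.mk_mul]
      have : (⟨b, hbD⟩ * ⟨b, hbD⟩ : D) = 1 := Subtype.ext hb
      rw [this]; rfl) hc
  obtain ⟨g, rfl⟩ := QuotientGroup.mk_surjective g
  obtain ⟨n, rfl⟩ := hz
  set w : D := ⟨b, hbD⟩ * (g * ⟨b, hbD⟩ * g⁻¹) with hw
  have hgb : ((g : H) * b * (g : H)⁻¹) * ((g : H) * b * (g : H)⁻¹) = 1 := by
    calc _ = (g : H) * (b * b) * (g : H)⁻¹ := by group
      _ = 1 := by rw [hb]; simp
  have hbw : b * (w : H) * b⁻¹ = (w : H)⁻¹ := conj_mul_eq_inv hb hgb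
  have hwy : Commute y (w : H) := by
    have e0 : (g : H)⁻¹ * y * (g : H)⁻¹⁻¹ = y ∨ (g : H)⁻¹ * y * (g : H)⁻¹⁻¹ = y⁻¹ :=
      mem_extCentralizer.1 (g⁻¹).2
    have e1 : (g : H) * b * (g : H)⁻¹ * y * ((g : H) * b * (g : H)⁻¹)⁻¹ = y⁻¹ := by
      rcases e0 with e0 | e0
      · calc _ = (g : H) * (b * ((g : H)⁻¹ * y * (g : H)⁻¹⁻¹) * b⁻¹) * (g : H)⁻¹ := by group
          _ = (g : H) * ((g : H)⁻¹ * y * (g : H)⁻¹⁻¹)⁻¹ * (g : H)⁻¹ := by rw [e0, hby]
          _ = y⁻¹ := by group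
      · calc _ = (g : H) * (b * ((g : H)⁻¹ * y * (g : H)⁻¹⁻¹) * b⁻¹) * (g : H)⁻¹ := by group
          _ = (g : H) * (b * y * b⁻¹)⁻¹ * (g : H)⁻¹ := by rw [e0]; group
          _ = (g : H) * ((g : H)⁻¹ * y * (g : H)⁻¹⁻¹)⁻¹ * (g : H)⁻¹ := by rw [e0, hby]
          _ = y⁻¹ := by group
    have : (w : H) * y * (w : H)⁻¹ = y := by
      calc (w : H) * y * (w : H)⁻¹
          = b * ((g : H) * b * (g : H)⁻¹ * y * ((g : H) * b * (g : H)⁻¹)⁻¹) * b⁻¹ := by
            rw [hw]; simp only [coe_mul, coe_inv]; group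
        _ = (b * y * b⁻¹)⁻¹ := by rw [e1]; group
        _ = y := by rw [hby, inv_inv]
    exact (mul_inv_eq_iff_eq_mul.1 this).symm
  have hq : (((⟨b, hbD⟩ : D) : D ⧸ J) * ((g : D ⧸ J) * ((⟨b, hbD⟩ : D) : D ⧸ J) * (g : D ⧸ J)⁻¹)) ^ n
      = ((w ^ n : D) : D ⧸ J) := by
    rw [hw]; simp
  simp only at h1 h2
  rw [hq] at h1 h2
  obtain ⟨p, q, hp, hq', hpq, -, ⟨k, hk⟩, hqo⟩ := CfsgLib.Fgs.exists_p_part 2 (w ^ n)
  have hqw : (q : H) ∈ zpowers (w : H) := by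
    obtain ⟨m, rfl⟩ := hq'
    simp only [coe_zpow]
    exact zpow_mem (zpow_mem (mem_zpowers _) _) _
  have hqJ : q ∈ J := hall q (commute_of_mem_zpowers hwy hqw)
    (by rw [Subgroup.orderOf_coe]; exact Nat.odd_iff.2 (Nat.two_dvd_ne_zero.1 hqo))
    (inv_of_mem_zpowers hbw hqw)
  have e : ((w ^ n : D) : D ⧸ J) = (p : D ⧸ J) := by
    rw [← hpq, QuotientGroup.mk_mul, (QuotientGroup.eq_one_iff q).2 hqJ, mul_one]
  rw [e] at h1 h2
  exact h1 (T2.eq_one_of_odd ⟨k, by rw [← QuotientGroup.mk_pow, ← hk, pow_orderOf_eq_one]; rfl⟩ h2)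

/-- The centraliser of an element of odd order inverted by an involution has odd order. -/
theorem noInv {a y : H} (ha : a * a = 1) (hy1 : y ≠ 1) (hyo : Odd (orderOf y))
    (hay : a * y * a⁻¹ = y⁻¹) : NoInv y := by
  by_contra hbad
  let B : Set H := {y | y ≠ 1 ∧ Odd (orderOf y) ∧ (∃ a, a * a = 1 ∧ a * y * a⁻¹ = y⁻¹) ∧ ¬ NoInv y}
  obtain ⟨y, ⟨hy1, hyo, ⟨a, ha, hay⟩, hbad⟩, hmax⟩ :=
    Set.exists_max_image B orderOf (Set.toFinite B) ⟨y, hy1, hyo, ⟨a, ha, hay⟩, hbad⟩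
  have hmax' : ∀ b : H, b * b = 1 → ∀ x : H, Odd (orderOf x) → b * x * b⁻¹ = x⁻¹ → orderOf y < orderOf x →
      NoInv x := by
    intro b hb x h1 h2 h3
    by_contra h4
    have hx1 : x ≠ 1 := by
      rintro rfl
      rw [orderOf_one] at h3
      have := orderOf_pos y
      exact hy1 (orderOf_eq_one_iff.1 (by omega))
    exact absurd (hmax x ⟨hx1, h1, ⟨b, hb, h2⟩, h4⟩) (by omega)
  simp only [NoInv, not_forall] at hbad
  obtain ⟨t0, ht0, ht0y, ht01⟩ := hbad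
  obtain ⟨t, ht1, ht, hty, hta⟩ := exists_comm_invol ha hy1 hyo hay ht0 ht01 ht0y
  have hat : a * t * (a * t) = 1 := by
    calc a * t * (a * t) = a * (t * a) * t := by group
      _ = (a * a) * (t * t) := by rw [hta.eq]; group
      _ = 1 := by rw [ha, ht, one_mul]
  have haty : a * t * y * (a * t)⁻¹ = y⁻¹ := by
    calc (a * t) * y * (a * t)⁻¹ = a * (t * y * t⁻¹) * a⁻¹ := by group
      _ = _ := by rw [hty.eq, mul_inv_cancel_right, hay]
  set D := extCentralizer y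
  haveI hN : ((zpowers y).subgroupOf D).Normal := ⟨fun n hn g => by
    obtain ⟨k, hk⟩ := mem_subgroupOf.1 hn
    rw [mem_subgroupOf]
    simp only [coe_mul, coe_inv]
    rw [← hk, ← conj_zpow]
    rcases mem_extCentralizer.1 g.2 with e | e
    · rw [e]; exact zpow_mem (mem_zpowers y) _
    · rw [e]; exact zpow_mem (inv_mem (mem_zpowers y)) _⟩
  have haD : a ∈ D := mem_extCentralizer.2 (Or.inr hay)
  have hatD : a * t ∈ D := mem_extCentralizer.2 (Or.inr haty)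
  have h1 := quot_core ha hay (fun y' h1 h2 h3 =>
    h.step1 ha hy1 hyo hay ht ht1 hty hta (hmax' a ha) h1 h2 h3) haD
  have h2 := quot_core hat haty (fun y' h1 h2 h3 =>
    h.step1 hat hy1 hyo haty ht ht1 hty (hta.mul_right (Commute.refl t)) (hmax' _ hat) h1 h2 h3) hatD
  obtain ⟨y', hy'y, hy'1, hy'o, hty'⟩ := h.exists_inv_cent (RO.of_inv hy1 hyo hay) ht ht1 hty
  have hy'D : y' ∈ D := mem_extCentralizer.2 (Or.inl (by rw [hy'y.eq]; simp))
  have htD : t ∈ D := mem_extCentralizer.2 (Or.inl (by rw [hty.eq]; simp))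
  set J := (zpowers y).subgroupOf D
  have h3 : ((⟨t, htD⟩ : D) : D ⧸ J) ∈ pCore 2 (D ⧸ J) := by
    have e : (⟨t, htD⟩ : D) = ⟨a, haD⟩ * ⟨a * t, hatD⟩ := Subtype.ext (by
      simp only [MulMemClass.mk_mul_mk]
      rw [← mul_assoc, ha, one_mul])
    rw [e, QuotientGroup.mk_mul]
    exact mul_mem h1 h2
  have h4 := mul_mem ((inferInstance : (pCore 2 (D ⧸ J)).Normal).conj_mem _ h3
    ((⟨y', hy'D⟩ : D) : D ⧸ J)) h3
  have e : ((⟨y', hy'D⟩ : D) : D ⧸ J) * ((⟨t, htD⟩ : D) : D ⧸ J) * ((⟨y', hy'D⟩ : D) : D ⧸ J)⁻¹ *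
      ((⟨t, htD⟩ : D) : D ⧸ J) = ((⟨y', hy'D⟩ * ⟨y', hy'D⟩ : D) : D ⧸ J) := by
    rw [← QuotientGroup.mk_inv, ← QuotientGroup.mk_mul, ← QuotientGroup.mk_mul,
      ← QuotientGroup.mk_mul]
    congr 1
    apply Subtype.ext
    simp only [coe_mul, coe_inv]
    calc y' * t * y'⁻¹ * t = y' * (t * y' * t⁻¹)⁻¹ := by
          rw [inv_eq_of_mul_eq_one_right ht]; group; simp [inv_eq_of_mul_eq_one_right ht]
      _ = y' * y' := by rw [hty', inv_inv]
  rw [e] at h4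
  have hyy : y' * y' ∈ zpowers y' := mul_mem (mem_zpowers y') (mem_zpowers y')
  have h5 : ((⟨y', hy'D⟩ * ⟨y', hy'D⟩ : D) : D ⧸ J) = 1 := by
    refine (T2.of_mem (CfsgLib.Core.isPGroup_pCore 2 _) h4).eq_one_of_odd ?_
    refine Odd.of_dvd_nat ?_ (orderOf_map_dvd (QuotientGroup.mk' J) _)
    rw [← Subgroup.orderOf_coe]
    exact odd_of_mem_zpowers hy'o hyy
  have h6 : y' * y' ∈ zpowers y := mem_subgroupOf.1 ((QuotientGroup.eq_one_iff _).1 h5)
  have h7 := commute_of_mem_zpowers hty h6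
  have h8 := inv_of_mem_zpowers hty' hyy
  rw [h7.eq, mul_inv_cancel_right] at h8
  refine sq_ne_one_of_odd (sq_ne_one_of_odd hy'1 hy'o) (odd_of_mem_zpowers hy'o hyy) ?_
  calc y' * y' * (y' * y') = (y' * y')⁻¹ * (y' * y') := by rw [← h8]
    _ = 1 := inv_mul_cancel _

end Lin

end CfsgLib.RealCl
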