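import Cfsg.Agent.Lib.RealCl.LinB

/-! The structure theorem for the linear groups of `LinA`. -/

set_option autoImplicit false
set_option linter.style.haveILetI false
set_option linter.unusedSectionVars false
set_option linter.unusedVariables false

namespace CfsgLib.RealCl

open Subgroup Cfsg CfsgLib.Invol

variable {H : Type*} [Group H] {W : Type*} [AddCommGroup W]

namespace Lin

variable [Finite H] [Finite W] {ρ : H →* Module.End ℤ W} (h : Lin ρ)
include h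

theorem U_le_of_comm {z b : H} (hz : z * z = 1) (hz1 : z ≠ 1) (hb : b * b = 1)
    (hc : Commute b z) {w : W} (hw : ρ z w = w) : ρ b w = w := by
  by_cases hw0 : w = 0
  · rw [hw0, map_zero]
  obtain ⟨x, hx1, hxo, hzx⟩ := h.exists_inv hz hz1
  have hbm := mem_core (centralizer {z}) (mem_centralizer_singleton_iff.2 hc.eq) hb
    (fun y h1 h2 h3 h4 => hz1 (h.noInv hb h2 h3 h4 z hz
      (mem_centralizer_singleton_iff.1 h1).symm))
  have hzm := mem_core (centralizer {z}) (mem_centralizer_singleton_iff.2 rfl) hz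
    (fun y h1 h2 h3 h4 => hz1 (h.noInv hz h2 h3 h4 z hz
      (mem_centralizer_singleton_iff.1 h1).symm))
  obtain ⟨v, hv, hfix⟩ := h.fix2 (CfsgLib.Core.isPGroup_map_pCore (p := 2) (centralizer {z}))
  obtain ⟨c, -, hc2, hcv⟩ := h.trC hz hx1 hxo hzx (h.noInv hz hx1 hxo hzx) hv hw0 (hfix z hzm) hw
  exact h.core_fix hbm (mem_centralizer_singleton_iff.2 hc2.eq) hfix hcv

theorem U_eq_of_comm {z b : H} (hz : z * z = 1) (hz1 : z ≠ 1) (hb : b * b = 1) (hb1 : b ≠ 1)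
    (hc : Commute b z) : U ρ z = U ρ b := by
  ext w
  exact ⟨h.U_le_of_comm hz hz1 hb hc, h.U_le_of_comm hb hb1 hz hc.symm⟩

theorem exists_central {v : W} (hv : v ≠ 0) {s : H} (hs : T2 s) (hs1 : s ≠ 1) (hsv : ρ s v = v) :
    ∃ z, z * z = 1 ∧ z ≠ 1 ∧ ρ z v = v ∧ ∀ t, T2 t → ρ t v = v → Commute t z := by
  obtain ⟨P, hP⟩ := h.exists_P hv
  haveI : Nontrivial (P : Subgroup H) :=
    ⟨⟨⟨s, (hP s).2 ⟨hs, hsv⟩⟩, 1, fun e => hs1 (congrArg Subtype.val e)⟩⟩
  haveI : Fact (Nat.Prime 2) := ⟨Nat.prime_two⟩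
  haveI := P.isPGroup'.center_nontrivial
  obtain ⟨c, hc⟩ := exists_ne (1 : center (P : Subgroup H))
  have hc1 : ((c : (P : Subgroup H)) : H) ≠ 1 := fun e => hc (Subtype.ext (Subtype.ext e))
  obtain ⟨z, hz, hz1, hz2⟩ := ((hP _).1 (c : (P : Subgroup H)).2).1.exists_invol hc1
  refine ⟨z, hz2, hz1, fix_zpowers ρ ((hP _).1 (c : (P : Subgroup H)).2).2 hz, fun t ht htv => ?_⟩
  refine commute_of_mem_zpowers ?_ hz
  exact congrArg Subtype.val (mem_center_iff.1 c.2 ⟨t, (hP t).2 ⟨ht, htv⟩⟩)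

theorem U_eq {s s' : H} (hs : s * s = 1) (hs1 : s ≠ 1) (hs' : s' * s' = 1) (hs1' : s' ≠ 1)
    {v : W} (hv : v ≠ 0) (hsv : ρ s v = v) (hsv' : ρ s' v = v) : U ρ s = U ρ s' := by
  obtain ⟨z, hz, hz1, -, hc⟩ := h.exists_central hv (T2.of_mul_self hs) hs1 hsv
  rw [← h.U_eq_of_comm hz hz1 hs hs1 (hc s (T2.of_mul_self hs) hsv),
    h.U_eq_of_comm hz hz1 hs' hs1' (hc s' (T2.of_mul_self hs') hsv')]

theorem odd_mul {s s' : H} (hs : s * s = 1) (hs1 : s ≠ 1) (hs' : s' * s' = 1) (hs1' : s' ≠ 1)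
    (hne : U ρ s ≠ U ρ s') : Odd (orderOf (s * s')) := by
  rw [← Nat.not_even_iff_odd]
  intro hev
  obtain ⟨h1, h2, h3⟩ := central_involution hs hs' hev
  have h4 := mul_self_of_orderOf_two h1
  have h5 := ne_one_of_orderOf_two h1
  exact hne ((h.U_eq_of_comm hs hs1 h4 h5 h2).trans (h.U_eq_of_comm hs' hs1' h4 h5 h3).symm)

omit h [Finite H] [Finite W] in
theorem mem_U_conj (g a : H) (v : W) : ρ g v ∈ U ρ (g * a * g⁻¹) ↔ v ∈ U ρ a :=
  conj_fix_iff ρ g a v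

omit h [Finite H] [Finite W] in
theorem U_conj_congr {a b : H} (e : U ρ a = U ρ b) (g : H) :
    U ρ (g * a * g⁻¹) = U ρ (g * b * g⁻¹) := by
  ext v
  rw [← act_inv' ρ g v, mem_U_conj, mem_U_conj, e]

omit h [Finite W] in
theorem exists_invol_conj {a s : H} (ha : a * a = 1) (hs : s * s = 1)
    (ho : Odd (orderOf (a * s))) : ∃ e : H, e * e = 1 ∧ e * a * e⁻¹ = s := by
  obtain ⟨k, hk⟩ := exists_pow_conj_of_odd ha hs ho
  have h1 := conj_pow_of_inverts (conj_mul_eq_inv ha hs) k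
  refine ⟨(a * s) ^ k * a, ?_, ?_⟩
  · calc (a * s) ^ k * a * ((a * s) ^ k * a) = (a * s) ^ k * (a * (a * s) ^ k * a⁻¹) * (a * a) := by
          group
      _ = 1 := by rw [h1, ha]; simp
  · calc (a * s) ^ k * a * a * ((a * s) ^ k * a)⁻¹ = (a * s) ^ k * a * ((a * s) ^ k)⁻¹ := by group
      _ = s := hk

/-- Two involutions with a common non-zero fixed vector are equal. -/
theorem uniq {a b : H} (ha : a * a = 1) (ha1 : a ≠ 1) (hb : b * b = 1) (hb1 : b ≠ 1)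
    {v : W} (hv : v ≠ 0) (hav : ρ a v = v) (hbv : ρ b v = v) : a = b := by
  by_contra hab
  have hU := h.U_eq ha ha1 hb hb1 hv hav hbv
  obtain ⟨y, hy1, hyo, hay⟩ := h.exists_inv ha ha1
  set s := y * a * y⁻¹ with hs
  have hs2 : s * s = 1 := by
    calc s * s = y * (a * a) * y⁻¹ := by rw [hs]; group
      _ = 1 := by rw [ha]; simp
  have hs1 : s ≠ 1 := fun e => ha1 (by simpa [hs] using e)
  have hUs : U ρ a ≠ U ρ s := fun e => hv (h.disj ha hy1 hyo hay hav (by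
    have : v ∈ U ρ a := hav
    rwa [e] at this))
  obtain ⟨e1, he1, he1a⟩ := exists_invol_conj ha hs2 (h.odd_mul ha ha1 hs2 hs1 hUs)
  obtain ⟨e2, he2, he2b⟩ := exists_invol_conj hb hs2 (h.odd_mul hb hb1 hs2 hs1 (hU ▸ hUs))
  have he11 : e1 ≠ 1 := by
    rintro rfl
    exact hUs (by rw [← he1a]; simp)
  have he21 : e2 ≠ 1 := by
    rintro rfl
    exact hUs (by rw [hU, ← he2b]; simp)
  have hi1 := inv_eq_of_mul_eq_one_right he1
  have hi2 := inv_eq_of_mul_eq_one_right he2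
  set d := e1 * e2 with hd
  have hdb : d * b * d⁻¹ = a := by
    calc d * b * d⁻¹ = e1 * (e2 * b * e2⁻¹) * e1⁻¹ := by rw [hd]; group
      _ = (e1 * e1) * a * (e1 * e1)⁻¹ := by rw [he2b, ← he1a]; group
      _ = a := by rw [he1]; simp
  have hd1 : d ≠ 1 := fun e => hab (by rw [← hdb, e]; simp)
  have hdU : U ρ (d * a * d⁻¹) = U ρ a := by rw [U_conj_congr hU d, hdb]
  have hU1 : U ρ e1 ≠ U ρ a := by
    intro e
    apply hUs
    have hv1 : ρ e1 v = v := by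
      have : v ∈ U ρ a := hav
      rwa [← e] at this
    refine h.U_eq ha ha1 hs2 hs1 hv hav ?_
    rw [← he1a]
    conv_lhs => rw [← hv1]
    rw [(conj_fix_iff ρ e1 a v).2 hav, hv1]
  have hU12 : U ρ e1 ≠ U ρ e2 := by
    intro e
    obtain ⟨w, hw0, hw⟩ := h.U_ne (T2.of_mul_self he1)
    have hw2 : ρ e2 w = w := by
      have : w ∈ U ρ e1 := hw
      rwa [e] at this
    have hT : T2 d := h.T2_mul hw0 (T2.of_mul_self he1) (T2.of_mul_self he2) hw hw2
    have hdw : ρ d w = w := by rw [hd, act_mul, hw2, hw]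
    obtain ⟨u, hu, hu0, hfix⟩ := exists_fixed ρ h.two hT.isPGroup (U ρ a) ⟨v, hav, hv⟩ (by
      intro g hg u hu
      rw [← mem_powers_iff_mem_zpowers] at hg
      obtain ⟨n, rfl⟩ := hg
      induction n with
      | zero => simpa using hu
      | succ n ih =>
        simp only at ih ⊢
        rw [pow_succ', act_mul, ← hdU, mem_U_conj]
        exact ih)
    obtain ⟨d', hd', hd'1, hd'2⟩ := hT.exists_invol hd1
    exact hU1 ((h.U_eq he1 he11 hd'2 hd'1 hw0 hw (fix_zpowers ρ hdw hd')).trans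
      (h.U_eq hd'2 hd'1 ha ha1 hu0 (hfix d' hd') hu))
  have hdo : Odd (orderOf d) := h.odd_mul he1 he11 he2 he21 hU12
  have hde : e1 * d * e1⁻¹ = d⁻¹ := conj_mul_eq_inv he1 he2
  obtain ⟨w, hw0, hw⟩ := h.U_ne (T2.of_mul_self he1)
  obtain ⟨c, hc, hcv⟩ := h.tr (RO.of_inv hd1 hdo hde) hv hw0
  have h1 := (hcv a (T2.of_mul_self ha)).1 hav
  have hca2 : c * a * c⁻¹ * (c * a * c⁻¹) = 1 := by
    calc _ = c * (a * a) * c⁻¹ := by group
      _ = 1 := by rw [ha]; simp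
  have hca1 : c * a * c⁻¹ ≠ 1 := fun e => ha1 (by simpa using e)
  have h2 : U ρ e1 = U ρ (c * a * c⁻¹) := h.U_eq he1 he11 hca2 hca1 hw0 hw h1
  have h3 : U ρ (d * e1 * d⁻¹) = U ρ e1 := by
    rw [U_conj_congr h2 d, h2, ← U_conj_congr hdU c]
    congr 1
    calc d * (c * a * c⁻¹) * d⁻¹ = (d * c) * a * (d * c)⁻¹ := by group
      _ = (c * d) * a * (c * d)⁻¹ := by rw [hc.eq]
      _ = _ := by group
  refine hw0 (h.disj he1 hd1 hdo hde hw ?_)
  have : w ∈ U ρ e1 := hw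
  rwa [← h3] at this

theorem all_inv {z b y : H} (hz : z * z = 1) (hz1 : z ≠ 1) (hb : b * b = 1) (hb1 : b ≠ 1)
    (hy1 : y ≠ 1) (hyo : Odd (orderOf y)) (hzy : z * y * z⁻¹ = y⁻¹) : b * y * b⁻¹ = y⁻¹ := by
  obtain ⟨v, hv0, hv⟩ := h.U_ne (T2.of_mul_self hz)
  obtain ⟨w, hw0, hw⟩ := h.U_ne (T2.of_mul_self hb)
  obtain ⟨c, hc, hcv⟩ := h.tr (RO.of_inv hy1 hyo hzy) hv0 hw0
  have hca2 : c * z * c⁻¹ * (c * z * c⁻¹) = 1 := by
    calc _ = c * (z * z) * c⁻¹ := by group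
      _ = 1 := by rw [hz]; simp
  have hca1 : c * z * c⁻¹ ≠ 1 := fun e => hz1 (by simpa using e)
  rw [h.uniq hb hb1 hca2 hca1 hw0 hw ((hcv z (T2.of_mul_self hz)).1 hv)]
  calc c * z * c⁻¹ * y * (c * z * c⁻¹)⁻¹ = c * (z * (c⁻¹ * y * c) * z⁻¹) * c⁻¹ := by group
    _ = c * y⁻¹ * c⁻¹ := by rw [hc.inv_left.eq, inv_mul_cancel_right, hzy]
    _ = y⁻¹ := by rw [hc.inv_right.eq]; simp

theorem odd_mul' {s s' : H} (hs : s * s = 1) (hs1 : s ≠ 1) (hs' : s' * s' = 1) (hs1' : s' ≠ 1) :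
    Odd (orderOf (s * s')) := by
  by_cases e : s = s'
  · rw [← e, hs]; simp
  refine h.odd_mul hs hs1 hs' hs1' (fun e' => e ?_)
  obtain ⟨v, hv0, hv⟩ := h.U_ne (T2.of_mul_self hs)
  refine h.uniq hs hs1 hs' hs1' hv0 hv ?_
  have : v ∈ U ρ s := hv
  rwa [e'] at this

theorem exists_invol_fix {z : H} (hz : z * z = 1) (hz1 : z ≠ 1) {w : W} (hw : w ≠ 0) :
    ∃ b, b * b = 1 ∧ b ≠ 1 ∧ ρ b w = w := by
  obtain ⟨y, hy1, hyo, hzy⟩ := h.exists_inv hz hz1
  obtain ⟨v, hv0, hv⟩ := h.U_ne (T2.of_mul_self hz)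
  obtain ⟨c, hc, hcv⟩ := h.tr (RO.of_inv hy1 hyo hzy) hv0 hw
  refine ⟨c * z * c⁻¹, ?_, fun e => hz1 (by simpa using e), (hcv z (T2.of_mul_self hz)).1 hv⟩
  calc _ = c * (z * z) * c⁻¹ := by group
    _ = 1 := by rw [hz]; simp

/-- The structure theorem. -/
theorem main {z : H} (hz : z * z = 1) (hz1 : z ≠ 1) :
    ∃ C : Subgroup H, C.Normal ∧ Odd (Nat.card C) ∧ commutator H ≤ C ∧
      ∀ g ∈ C, ∀ v, v ≠ 0 → ρ g v = v → ∀ w, ρ g w = w := by
  let S : Set H := {x | ∃ b b', b * b = 1 ∧ b ≠ 1 ∧ b' * b' = 1 ∧ b' ≠ 1 ∧ x = b * b'}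
  have hinv : ∀ x ∈ S, ∀ c, c * c = 1 → c ≠ 1 → c * x * c⁻¹ = x⁻¹ := by
    rintro _ ⟨b, b', hb, hb1, hb', hb1', rfl⟩ c hc hc1
    by_cases e : b * b' = 1
    · rw [e]; simp
    exact h.all_inv hb hb1 hc hc1 e (h.odd_mul' hb hb1 hb' hb1') (conj_mul_eq_inv hb hb')
  have hcomm : ∀ x ∈ S, ∀ y ∈ S, x * y = y * x := by
    rintro _ ⟨b, b', hb, hb1, hb', hb1', rfl⟩ y hy
    have : b * b' * y * (b * b')⁻¹ = y := by
      calc b * b' * y * (b * b')⁻¹ = b * (b' * y * b'⁻¹) * b⁻¹ := by group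
        _ = (b * y * b⁻¹)⁻¹ := by rw [hinv y hy b' hb' hb1']; group
        _ = y := by rw [hinv y hy b hb hb1, inv_inv]
    exact mul_inv_eq_iff_eq_mul.1 this
  obtain ⟨h1, h2⟩ := closure_inv (b := z) hcomm (fun x hx => hinv x hx z hz hz1) (by
    rintro _ ⟨b, b', hb, hb1, hb', hb1', rfl⟩
    exact h.odd_mul' hb hb1 hb' hb1')
  set J := closure S with hJ
  haveI hJn : J.Normal := ⟨fun n hn g => by
    have : J ≤ J.comap (MulAut.conj g).toMonoidHom := by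
      rw [hJ, closure_le]
      rintro _ ⟨b, b', hb, hb1, hb', hb1', rfl⟩
      refine subset_closure ⟨g * b * g⁻¹, g * b' * g⁻¹, ?_, fun e => hb1 (by simpa using e), ?_,
        fun e => hb1' (by simpa using e), ?_⟩
      · calc _ = g * (b * b) * g⁻¹ := by group
          _ = 1 := by rw [hb]; simp
      · calc _ = g * (b' * b') * g⁻¹ := by group
          _ = 1 := by rw [hb']; simp
      · change g * (b * b') * g⁻¹ = _
        group
    exact this hn⟩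
  obtain ⟨x, hxJ, hx⟩ := h.cyc h1 h2
  haveI : IsCyclic J := by rw [hx]; infer_instance
  let f : H →* (ZMod (Nat.card J))ˣ :=
    (IsCyclic.mulAutMulEquiv J).toMonoidHom.comp (MulAut.conjNormal (H := J))
  have hker : ∀ g, g ∈ f.ker ↔ ∀ j ∈ J, Commute g j := by
    intro g
    rw [MonoidHom.mem_ker]
    change IsCyclic.mulAutMulEquiv J (MulAut.conjNormal g) = 1 ↔ _
    rw [MulEquiv.map_eq_one_iff]
    constructor
    · intro e j hj
      have := congrArg Subtype.val (DFunLike.congr_fun e ⟨j, hj⟩)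
      simp only [MulAut.conjNormal_apply, MulAut.one_apply] at this
      exact mul_inv_eq_iff_eq_mul.1 this
    · intro e
      ext j
      simp only [MulAut.conjNormal_apply, MulAut.one_apply]
      rw [(e j j.2).eq]; simp
  have other : ∀ a : H, a * a = 1 → a ≠ 1 → ∃ y ∈ J, y ≠ 1 ∧ Odd (orderOf y) ∧ a * y * a⁻¹ = y⁻¹ := by
    intro a ha ha1
    obtain ⟨y, hy1, hyo, hay⟩ := h.exists_inv ha ha1
    have hs2 : y * a * y⁻¹ * (y * a * y⁻¹) = 1 := by
      calc _ = y * (a * a) * y⁻¹ := by group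
        _ = 1 := by rw [ha]; simp
    have hs1 : y * a * y⁻¹ ≠ 1 := fun e => ha1 (by simpa using e)
    refine ⟨a * (y * a * y⁻¹), subset_closure ⟨_, _, ha, ha1, hs2, hs1, rfl⟩, fun e => ?_,
      h.odd_mul' ha ha1 hs2 hs1, conj_mul_eq_inv ha hs2⟩
    obtain ⟨v, hv0, hv⟩ := h.U_ne (T2.of_mul_self ha)
    refine hv0 (h.disj ha hy1 hyo hay hv ?_)
    rw [← inv_eq_of_mul_eq_one_right e, inv_eq_of_mul_eq_one_right ha, hv]
  refine ⟨f.ker, inferInstance, ?_, Abelianization.commutator_subset_ker f, ?_⟩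
  · rw [← Nat.not_even_iff_odd, even_iff_two_dvd]
    intro hd
    haveI : Fact (Nat.Prime 2) := ⟨Nat.prime_two⟩
    obtain ⟨t, ht⟩ := exists_prime_orderOf_dvd_card' 2 hd
    obtain ⟨y, hyJ, hy1, hyo, hzy⟩ := other z hz hz1
    rw [← Subgroup.orderOf_coe] at ht
    exact ne_one_of_orderOf_two ht (h.noInv hz hy1 hyo hzy t (mul_self_of_orderOf_two ht)
      ((hker t).1 t.2 y hyJ))
  · intro g hg v hv hgv
    rw [hker] at hg
    obtain ⟨a, ha, ha1, hav⟩ := h.exists_invol_fix hz hz1 hv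
    have hga : Commute g a := by
      have e := h.uniq (a := g * a * g⁻¹) (by
        calc _ = g * (a * a) * g⁻¹ := by group
          _ = 1 := by rw [ha]; simp) (fun e => ha1 (by simpa using e)) ha ha1 hv (by
          conv_lhs => rw [← hgv]
          rw [(conj_fix_iff ρ g a v).2 hav, hgv]) hav
      exact mul_inv_eq_iff_eq_mul.1 e
    have hgb : ∀ b, b * b = 1 → b ≠ 1 → Commute g b := by
      intro b hb hb1
      have e : b = a * (a * b) := by rw [← mul_assoc, ha, one_mul]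
      rw [e]
      exact hga.mul_right (hg _ (subset_closure ⟨_, _, ha, ha1, hb, hb1, rfl⟩))
    obtain ⟨y, hyJ, hy1, hyo, hay⟩ := other a ha ha1
    refine h.triv_of_comm ha hy1 hyo hay (hg y hyJ) (fun u hu => ?_)
    have hyv : ρ a (ρ y v) ≠ ρ y v := fun e =>
      act_ne_zero ρ y hv (h.disj ha hy1 hyo hay e ((conj_fix_iff ρ y a v).2 hav))
    have hw : u + ρ y v ≠ 0 := fun e => hyv (by
      rw [← neg_eq_of_add_eq_zero_right e, map_neg, hu])
    obtain ⟨b, hb, hb1, hbw⟩ := h.exists_invol_fix hz hz1 hw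
    have hba : b ≠ a := by
      rintro rfl
      rw [map_add, hu] at hbw
      exact hyv (add_left_cancel hbw)
    have hgw : ρ g (u + ρ y v) = ρ g u + ρ y v := by
      rw [map_add, ← act_mul ρ g y, (hg y hyJ).eq, act_mul, hgv]
    have h3 : ρ b (ρ g u + ρ y v) = ρ g u + ρ y v := by
      rw [← hgw, ← act_mul, ← (hgb b hb hb1).eq, act_mul, hbw]
    have h4 : ρ b (ρ g u - u) = ρ g u - u := by
      have e : ρ g u - u = (ρ g u + ρ y v) - (u + ρ y v) := by abel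
      rw [e, map_sub, h3, hbw]
    have h5 : ρ a (ρ g u - u) = ρ g u - u := by
      rw [map_sub, hu, ← act_mul, ← hga.eq, act_mul, hu]
    by_contra hne
    exact hba (h.uniq hb hb1 ha ha1 (sub_ne_zero.2 hne) h4 h5)

end Lin

end CfsgLib.RealCl
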