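import Cfsg.Agent.Lib.RealCl.LinC
import Cfsg.Agent.Lib.FT.OddOrder
import Cfsg.Agent.Lib.Invol.SylowElem

/-! Consequences of the structure theorem: solvability and the primes of `O^{2'}(H)`. -/

set_option autoImplicit false
set_option linter.style.haveILetI false
set_option linter.unusedSectionVars false
set_option linter.unusedVariables false

namespace CfsgLib.RealCl

open Subgroup Cfsg CfsgLib.Invol
open scoped commutatorElement

variable {H : Type*} [Group H] {W : Type*} [AddCommGroup W]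

/-- Stabiliser of a vector. -/
def St (ρ : H →* Module.End ℤ W) (v : W) : Subgroup H where
  carrier := {g | ρ g v = v}
  mul_mem' := fun {a b} ha hb => by
    change ρ (a * b) v = v
    rw [act_mul, hb, ha]
  one_mem' := by change ρ 1 v = v; simp
  inv_mem' := fun {a} ha => by
    change ρ a⁻¹ v = v
    conv_lhs => rw [← ha]
    exact act_inv ρ a v

theorem T2.mem_sylow {t : H} (ht : T2 t) (P : Sylow 2 H)
    (hN : t ∈ normalizer ((P : Subgroup H) : Set H)) : t ∈ (P : Subgroup H) := by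
  have h1 : IsPGroup 2 (zpowers t ⊔ (P : Subgroup H) : Subgroup H) :=
    IsPGroup.to_sup_of_normal_right' ht.isPGroup P.isPGroup' (zpowers_le.2 hN)
  have h3 := P.is_maximal' h1 le_sup_right
  rw [← h3]
  exact mem_sup_left (mem_zpowers t)

theorem T2.map {H' : Type*} [Group H'] (f : H →* H') {t : H} (ht : T2 t) : T2 (f t) := by
  obtain ⟨k, hk⟩ := ht
  exact ⟨k, by rw [← map_pow, hk, map_one]⟩

theorem T2.exists_conj [Finite H] {t : H} (ht : T2 t) (P : Sylow 2 H) :
    ∃ g : H, g * t * g⁻¹ ∈ (P : Subgroup H) := by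
  obtain ⟨Q, hQ⟩ := ht.isPGroup.exists_le_sylow
  obtain ⟨g, hg⟩ := MulAction.exists_smul_eq H Q P
  refine ⟨g, ?_⟩
  rw [← hg, Sylow.coe_subgroup_smul]
  exact smul_mem_pointwise_smul _ _ _ (hQ (mem_zpowers t))

theorem closure_T2_le [Finite H] {M : Subgroup H} [hM : M.Normal] (P : Sylow 2 H)
    (h : (P : Subgroup H) ≤ M) : closure {t : H | T2 t} ≤ M := by
  rw [closure_le]
  intro t ht
  obtain ⟨g, hg⟩ := T2.exists_conj ht P
  have := hM.conj_mem _ (h hg) g⁻¹
  simpa [mul_assoc] using this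

namespace Lin

variable [Finite H] [Finite W] {ρ : H →* Module.End ℤ W} (h : Lin ρ)
include h

theorem solvable {z : H} (hz : z * z = 1) (hz1 : z ≠ 1) : Group.IsSolvable H := by
  obtain ⟨C, hC, hodd, hcomm, -⟩ := h.main hz hz1
  haveI := CfsgLib.FT.odd_order_solvable hodd
  haveI : Group.IsSolvable (H ⧸ C) := Group.isSolvable_of_comm (fun a b => by
    obtain ⟨a, rfl⟩ := QuotientGroup.mk_surjective a
    obtain ⟨b, rfl⟩ := QuotientGroup.mk_surjective b
    rw [← QuotientGroup.mk_mul, ← QuotientGroup.mk_mul, QuotientGroup.eq]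
    apply hcomm
    have : (a * b)⁻¹ * (b * a) = ⁅b⁻¹, a⁻¹⁆ := by rw [commutatorElement_def]; group
    rw [this]
    exact commutator_mem_commutator (mem_top _) (mem_top _))
  exact Group.isSolvable_of_ker_le_range C.subtype (QuotientGroup.mk' C) (by simp)

theorem comm_T2 {s t : H} (hs : ∀ w, ρ s w = w) (ht : T2 t) : Commute s t := by
  obtain ⟨v, hv, htv⟩ := h.U_ne ht
  have h1 : ρ (s * t * s⁻¹) v = v := by
    conv_lhs => rw [← hs v]
    rw [(conj_fix_iff ρ s t v).2 htv, hs]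
  have hti : T2 t⁻¹ := by
    obtain ⟨k, hk⟩ := ht
    exact ⟨k, by rw [inv_pow, hk, inv_one]⟩
  have h2 : ρ t⁻¹ v = v := (St ρ v).inv_mem htv
  have h3 := h.faith _ (h.T2_mul hv (ht.conj s) hti h1 h2) (fun w => by
    rw [act_mul, act_mul, act_mul, hs]
    have : ρ s⁻¹ (ρ t⁻¹ w) = ρ t⁻¹ w := by
      conv_lhs => rw [← hs (ρ t⁻¹ w)]
      exact act_inv ρ s _
    rw [this, act_inv'])
  rw [mul_inv_eq_one, mul_inv_eq_iff_eq_mul] at h3
  exact h3

theorem prime_dvd {z : H} (hz : z * z = 1) (hz1 : z ≠ 1) {p : ℕ} (hp : p.Prime) (hp2 : p ≠ 2)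
    (hd : p ∣ Nat.card (closure {t : H | T2 t})) {v : W} (hv : v ≠ 0) : p ∣ (St ρ v).index := by
  by_contra hn
  haveI := Fact.mk hp
  obtain ⟨C, hC, hodd, hcomm, hsemi⟩ := h.main hz hz1
  set K := closure {t : H | T2 t} with hK
  obtain ⟨P⟩ : Nonempty (Sylow 2 H) := inferInstance
  haveI : (C ⊔ (P : Subgroup H)).Normal := ⟨fun n hn g => by
    have e : g * n * g⁻¹ = ⁅g, n⁆ * n := by rw [commutatorElement_def]; group
    rw [e]
    exact mul_mem (mem_sup_left (hcomm (commutator_mem_commutator (mem_top _) (mem_top _)))) hn⟩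
  have hKle : K ≤ C ⊔ (P : Subgroup H) := closure_T2_le P le_sup_right
  obtain ⟨R, hR⟩ := CfsgLib.Fgs.exists_sylow_le_of_not_dvd_index hn
  obtain ⟨S⟩ : Nonempty (Sylow p K) := inferInstance
  have hcent : ∀ s ∈ (S : Subgroup K), ∀ k : K, Commute s k := by
    intro s hs k
    obtain ⟨j, hj⟩ := S.isPGroup' ⟨s, hs⟩
    have hj' : (s : H) ^ p ^ j = 1 := by simpa using congrArg (fun x => ((x : K) : H)) (congrArg Subtype.val hj)
    have hso : Odd (orderOf (s : H)) :=
      ((hp.odd_of_ne_two hp2).pow).of_dvd_nat (orderOf_dvd_of_pow_eq_one hj')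
    have hsC : (s : H) ∈ C := by
      obtain ⟨c, hc, t, ht, e⟩ := (mem_sup_of_normal_left (s := C) (t := (P : Subgroup H))).1 (hKle s.2)
      rw [← QuotientGroup.eq_one_iff]
      refine T2.eq_one_of_odd ?_ (hso.of_dvd_nat (orderOf_map_dvd (QuotientGroup.mk' C) _))
      rw [← e, QuotientGroup.mk_mul, (QuotientGroup.eq_one_iff c).2 hc, one_mul]
      exact (T2.of_mem P.isPGroup' ht).map (QuotientGroup.mk' C)
    obtain ⟨Q, hQ⟩ := (isPGroup_zpowers_of_pow_eq_one hj').exists_le_sylow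
    obtain ⟨g, hg⟩ := MulAction.exists_smul_eq H Q R
    have h1 : g * s * g⁻¹ ∈ St ρ v := by
      apply hR
      rw [← hg, Sylow.coe_subgroup_smul]
      exact smul_mem_pointwise_smul _ _ _ (hQ (mem_zpowers _))
    have h2 : ρ s (ρ g⁻¹ v) = ρ g⁻¹ v := by
      rw [← conj_fix_iff ρ g, act_inv']
      exact h1
    have h3 := hsemi s hsC _ (act_ne_zero ρ g⁻¹ hv) h2
    have h4 : K ≤ centralizer {(s : H)} := by
      refine (closure_le _).2 (fun t ht => ?_)
      exact mem_centralizer_singleton_iff.2 (h.comm_T2 h3 ht).eq.symm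
    exact Subtype.ext (mem_centralizer_singleton_iff.1 (h4 k.2)).symm
  have hNC : normalizer ((S : Subgroup K) : Set K) ≤ centralizer ((S : Subgroup K) : Set K) :=
    fun k _ s hs => (hcent s hs k).eq
  have hcompl := MonoidHom.ker_transferSylow_isComplement' S hNC
  set M := (MonoidHom.transferSylow S hNC).ker
  have hM : K ≤ M.map K.subtype := by
    refine (closure_le _).2 (fun t ht => ?_)
    refine ⟨⟨t, subset_closure ht⟩, ?_, rfl⟩
    change MonoidHom.transferSylow S hNC ⟨t, subset_closure ht⟩ = 1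
    have hT : T2 (⟨t, subset_closure ht⟩ : K) := by
      obtain ⟨k, hk⟩ := ht
      exact ⟨k, Subtype.ext hk⟩
    refine (hT.map _).eq_one_of_odd ?_
    obtain ⟨j, hj⟩ := S.isPGroup' (MonoidHom.transferSylow S hNC ⟨t, subset_closure ht⟩)
    exact ((hp.odd_of_ne_two hp2).pow).of_dvd_nat (orderOf_dvd_of_pow_eq_one hj)
  have hMt : M = ⊤ := by
    rw [eq_top_iff]
    intro k _
    obtain ⟨m, hm, e⟩ := hM k.2
    rwa [← Subtype.ext e]
  have h5 := hcompl.index_eq_card
  rw [hMt] at hcompl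
  have h6 : (S : Subgroup K) = ⊥ := isComplement'_top_left.1 hcompl
  exact S.ne_bot_of_dvd_card hd h6

end Lin

end CfsgLib.RealCl
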